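import Cfsg.Agent.AbelianTwoPrime.Setup
import Mathlib.GroupTheory.Exponent
import Mathlib.Data.ZMod.Basic
import Mathlib.GroupTheory.SpecificGroups.Cyclic

/-!
An abelian 2-group with at most four elements killed by 2 and an automorphism moving every involution
is homocyclic of rank two.
-/

set_option autoImplicit false
set_option linter.style.haveILetI false

namespace CfsgLib.AbelianTwoPrime

variable {A : Type*} [CommGroup A] [Finite A]

/-- The kernel of `x ↦ x ^ 2 ^ j` has order at most `4 ^ j`. -/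
theorem card_pow_ker_le (h4 : Nat.card (powMonoidHom 2 : A →* A).ker ≤ 4) :
    ∀ j : ℕ, Nat.card (powMonoidHom (2 ^ j) : A →* A).ker ≤ 4 ^ j := by
  intro j
  induction j with
  | zero =>
    rw [pow_zero, pow_zero, show (powMonoidHom 1 : A →* A).ker = ⊥ from
      (Subgroup.eq_bot_iff_forall _).2 fun x hx => by simpa [MonoidHom.mem_ker] using hx,
      Subgroup.card_bot]
  | succ j ih =>
    let f : (powMonoidHom (2 ^ (j + 1)) : A →* A).ker →* (powMonoidHom (2 ^ j) : A →* A).ker :=
      ((powMonoidHom 2 : A →* A).comp (Subgroup.subtype _)).codRestrict _ fun x => by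
        rw [MonoidHom.mem_ker]
        show ((x : A) ^ 2) ^ 2 ^ j = 1
        rw [← pow_mul, ← pow_succ']
        exact x.2
    have hk : Nat.card f.ker ≤ Nat.card (powMonoidHom 2 : A →* A).ker :=
      Nat.card_le_card_of_injective (fun x => ⟨((x : (powMonoidHom (2 ^ (j + 1)) : A →* A).ker) : A),
        congrArg Subtype.val (MonoidHom.mem_ker.1 x.2)⟩) fun x y e => by
          exact Subtype.ext (Subtype.ext (congrArg Subtype.val e :))
    have hm := Subgroup.card_mul_index f.ker
    rw [Subgroup.index_ker] at hm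
    refine hm.symm.le.trans ?_
    rw [pow_succ' 4 j]
    exact Nat.mul_le_mul (hk.trans h4) ((Subgroup.card_le_card_group _).trans ih)

/-- Homocyclicity. -/
theorem exists_homocyclic (hA : IsPGroup 2 A) (h4 : Nat.card (powMonoidHom 2 : A →* A).ker ≤ 4)
    (σ : MulAut A) (hσ : ∀ x : A, x ≠ 1 → x * x = 1 → σ x ≠ x) :
    ∃ a : ℕ, Nonempty (A ≃* Multiplicative (ZMod (2 ^ a) × ZMod (2 ^ a))) := by
  classical
  have hp2 : Fact (Nat.Prime 2) := ⟨Nat.prime_two⟩
  obtain ⟨x, hx⟩ := Monoid.exists_orderOf_eq_exponent (G := A) (Monoid.ExponentExists.of_finite)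
  obtain ⟨a, ha⟩ := IsPGroup.iff_orderOf.1 hA x
  refine ⟨a, ?_⟩
  haveI : NeZero (2 ^ a) := ⟨pow_ne_zero _ two_ne_zero⟩
  set y := σ x with hy
  have hya : orderOf y = 2 ^ a := by rw [hy, σ.orderOf_eq, ha]
  have hexp : ∀ z : A, z ^ 2 ^ a = 1 := fun z => by
    rw [← ha, hx]; exact Monoid.pow_exponent_eq_one z
  have hval : ∀ (e : A) (u v : ZMod (2 ^ a)), e ^ (u + v).val = e ^ u.val * e ^ v.val := fun e u v => by
    rw [← pow_add, pow_eq_pow_mod (u.val + v.val) (hexp e), ZMod.val_add]
  let f : Multiplicative (ZMod (2 ^ a) × ZMod (2 ^ a)) →* A :=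
    MonoidHom.mk' (fun v => x ^ (Multiplicative.toAdd v).1.val * y ^ (Multiplicative.toAdd v).2.val)
      fun u v => by
        simp only [toAdd_mul, Prod.fst_add, Prod.snd_add, hval]
        rw [mul_mul_mul_comm]
  -- the cyclic groups meet trivially
  have hmeet : ∀ z : A, z ∈ Subgroup.zpowers x → z ∈ Subgroup.zpowers y → z = 1 := by
    by_contra hcon
    push Not at hcon
    obtain ⟨z, hzx, hzy, hz1⟩ := hcon
    obtain ⟨k, hk⟩ := IsPGroup.iff_orderOf.1 hA z
    have hk0 : k ≠ 0 := fun h0 => hz1 (orderOf_eq_one_iff.1 (by rw [hk, h0, pow_zero]))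
    set w := z ^ 2 ^ (k - 1) with hw
    have hw1 : w ≠ 1 := pow_ne_one_of_lt_orderOf (pow_ne_zero _ two_ne_zero)
      (hk ▸ Nat.pow_lt_pow_right Nat.one_lt_two (by omega))
    have hw2 : w * w = 1 := by
      rw [hw, ← pow_add, ← two_mul, ← pow_succ', Nat.sub_add_cancel (Nat.pos_of_ne_zero hk0), ← hk,
        pow_orderOf_eq_one]
    have huniq : ∀ (c u v : A), u ∈ Subgroup.zpowers c → v ∈ Subgroup.zpowers c → u ≠ 1 → v ≠ 1 →
        u * u = 1 → v * v = 1 → u = v := by
      intro c u v hu hv hu1 hv1 hu2 hv2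
      haveI := Fintype.ofFinite (Subgroup.zpowers c)
      have h := IsCyclic.card_pow_eq_one_le (α := Subgroup.zpowers c) two_pos
      by_contra hne
      have hsub : ({1, ⟨u, hu⟩, ⟨v, hv⟩} : Finset (Subgroup.zpowers c)) ⊆
          Finset.univ.filter (fun i => i ^ 2 = 1) := by
        intro i hi
        simp only [Finset.mem_insert, Finset.mem_singleton] at hi
        rw [Finset.mem_filter, pow_two]
        refine ⟨Finset.mem_univ _, Subtype.ext ?_⟩
        rcases hi with rfl | rfl | rfl
        · exact one_mul 1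
        · exact hu2
        · exact hv2
      have h3 : ({1, ⟨u, hu⟩, ⟨v, hv⟩} : Finset (Subgroup.zpowers c)).card = 3 := by
        rw [Finset.card_insert_of_notMem, Finset.card_pair]
        · exact fun e => hne (congrArg Subtype.val e)
        · simp only [Finset.mem_insert, Finset.mem_singleton, Subtype.ext_iff, OneMemClass.coe_one]
          exact fun e => e.elim (fun e => hu1 e.symm) (fun e => hv1 e.symm)
      have := (Finset.card_le_card hsub).trans h
      omega
    have hwx : w ∈ Subgroup.zpowers x := pow_mem hzx _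
    have hwy : w ∈ Subgroup.zpowers y := pow_mem hzy _
    have hσw : σ w ∈ Subgroup.zpowers y := by
      obtain ⟨i, hi⟩ := Subgroup.mem_zpowers_iff.1 hwx
      exact Subgroup.mem_zpowers_iff.2 ⟨i, by rw [hy, ← map_zpow, hi]⟩
    refine hσ w hw1 hw2 (huniq y (σ w) w hσw hwy (fun e => hw1 ?_) hw1 ?_ hw2)
    · exact σ.injective (e.trans (map_one σ).symm)
    · rw [← map_mul, hw2, map_one]
  have hinj : Function.Injective f := by
    rw [injective_iff_map_eq_one]
    intro v hv
    change x ^ (Multiplicative.toAdd v).1.val * y ^ (Multiplicative.toAdd v).2.val = 1 at hv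
    have h1 : x ^ (Multiplicative.toAdd v).1.val = (y ^ (Multiplicative.toAdd v).2.val)⁻¹ :=
      eq_inv_of_mul_eq_one_left hv
    have h2 := hmeet _ (pow_mem (Subgroup.mem_zpowers x) (Multiplicative.toAdd v).1.val)
      (h1 ▸ inv_mem (pow_mem (Subgroup.mem_zpowers y) _))
    rw [h2, one_mul] at hv
    have h3 := orderOf_dvd_of_pow_eq_one h2
    have h4 := orderOf_dvd_of_pow_eq_one hv
    rw [ha] at h3
    rw [hya] at h4
    have h5 := Nat.eq_zero_of_dvd_of_lt h3 (ZMod.val_lt _)
    have h6 := Nat.eq_zero_of_dvd_of_lt h4 (ZMod.val_lt _)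
    rw [ZMod.val_eq_zero] at h5 h6
    exact toAdd_eq_zero.1 (Prod.ext h5 h6)
  have hle : Nat.card A ≤ Nat.card (Multiplicative (ZMod (2 ^ a) × ZMod (2 ^ a))) := by
    rw [Nat.card_congr Multiplicative.toAdd, Nat.card_prod, Nat.card_zmod, ← mul_pow]
    refine le_trans (le_of_eq ?_) (card_pow_ker_le h4 a)
    rw [show (powMonoidHom (2 ^ a) : A →* A).ker = ⊤ from
      eq_top_iff.2 fun z _ => hexp z, Subgroup.card_top]
  exact ⟨(MulEquiv.ofBijective f ((Nat.bijective_iff_injective_and_card f).2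
    ⟨hinj, le_antisymm (Nat.card_le_card_of_injective f hinj) hle⟩)).symm⟩

end CfsgLib.AbelianTwoPrime
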