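import Cfsg.Agent.Eq.Def_Transfer
import Cfsg.Agent.Transfer.NormalPComplement
import Mathlib.GroupTheory.Transfer
import Mathlib.GroupTheory.GroupAction.ConjAct
import Mathlib.GroupTheory.GroupAction.Quotient

/-!
# An abelian Sylow 2-subgroup with inertial index a prime

The prime is odd, the elements of `P` outside the fixed part have trivial stabilizer in
`N(P)/C(P)`, and the hypotheses pass to subgroups above `N(P)` and to suitable quotients.
-/

set_option autoImplicit false
set_option linter.style.haveILetI false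

namespace CfsgLib.AbelianTwoPrime

open Cfsg CfsgLib

universe u

variable {G : Type u} [Group G]

/-- The index of `C(P)` in `N(P)`. -/
noncomputable abbrev idx (P : Subgroup G) : ℕ :=
  (Subgroup.centralizer (P : Set G)).relIndex (Subgroup.normalizer (P : Set G))

/-- An abelian Sylow 2-subgroup with inertial index a prime. -/
structure Hyp (P : Sylow 2 G) : Prop where
  comm : ∀ a ∈ (P : Subgroup G), ∀ b ∈ (P : Subgroup G), a * b = b * a
  prime : (idx (P : Subgroup G)).Prime

/-- The part of `P` fixed by its normalizer. -/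
def fixedPart (P : Subgroup G) : Subgroup G :=
  P ⊓ Subgroup.centralizer (Subgroup.normalizer (P : Set G) : Set G)

theorem mem_fixedPart {P : Subgroup G} {x : G} :
    x ∈ fixedPart P ↔ x ∈ P ∧ ∀ n ∈ Subgroup.normalizer (P : Set G), n * x = x * n := by
  simp [fixedPart, Subgroup.mem_inf, Subgroup.mem_centralizer_iff]

theorem fixedPart_le (P : Subgroup G) : fixedPart P ≤ P := inf_le_left

variable [Finite G] {P : Sylow 2 G}

namespace Hyp

omit [Finite G] in
theorem le_centralizer (h : Hyp P) :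
    (P : Subgroup G) ≤ Subgroup.centralizer ((P : Subgroup G) : Set G) :=
  fun x hx => Subgroup.mem_centralizer_iff.2 fun y hy => h.comm y hy x hx

omit [Finite G] in
theorem isMulCommutative (h : Hyp P) : IsMulCommutative (P : Subgroup G) :=
  ⟨⟨fun a b => Subtype.ext (h.comm a a.2 b b.2)⟩⟩

theorem odd_idx (h : Hyp P) : Odd (idx (P : Subgroup G)) := by
  haveI : Fact (Nat.Prime 2) := ⟨Nat.prime_two⟩
  rw [← Nat.not_even_iff_odd, even_iff_two_dvd]
  intro h2
  have h1 := Subgroup.relIndex_mul_index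
    (Subgroup.centralizer_le_normalizer ((P : Subgroup G) : Set G))
  exact P.not_dvd_index ((h2.trans (h1 ▸ dvd_mul_right _ _)).trans
    (Subgroup.index_dvd_of_le h.le_centralizer))

theorem three_le_idx (h : Hyp P) : 3 ≤ idx (P : Subgroup G) := by
  have h1 := h.prime.two_le
  rcases h1.eq_or_lt with h2 | h2
  · exact absurd h.odd_idx (by rw [← h2]; decide)
  · omega

omit [Finite G] in
/-- An element outside the fixed part is centralized by `C(P)` only. -/
theorem centralizer_inf_normalizer (h : Hyp P) {u : G} (hu : u ∈ (P : Subgroup G))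
    (hZ : u ∉ fixedPart (P : Subgroup G)) :
    Subgroup.centralizer ({u} : Set G) ⊓ Subgroup.normalizer ((P : Subgroup G) : Set G) =
      Subgroup.centralizer ((P : Subgroup G) : Set G) := by
  set N := Subgroup.normalizer ((P : Subgroup G) : Set G)
  set C := Subgroup.centralizer ((P : Subgroup G) : Set G)
  set X := Subgroup.centralizer ({u} : Set G) ⊓ N
  have hCX : C ≤ X := le_inf (Subgroup.centralizer_le (Set.singleton_subset_iff.2 hu))
    (Subgroup.centralizer_le_normalizer _)
  have hm := Subgroup.relIndex_mul_relIndex C X N hCX inf_le_right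
  rcases h.prime.eq_one_or_self_of_dvd _ (Dvd.intro_left _ hm : X.relIndex N ∣ idx _) with h1 | h1
  · exfalso
    refine hZ (mem_fixedPart.2 ⟨hu, fun n hn => ?_⟩)
    exact Subgroup.mem_centralizer_singleton_iff.1 ((Subgroup.relIndex_eq_one.1 h1 hn).1)
  · rw [h1] at hm
    have h2 : C.relIndex X = 1 := Nat.eq_of_mul_eq_mul_right h.prime.pos (by rw [one_mul]; exact hm)
    exact le_antisymm (Subgroup.relIndex_eq_one.1 h2) hCX

omit [Finite G] in
theorem mem_centralizer_of_commute (h : Hyp P) {u n : G} (hu : u ∈ (P : Subgroup G))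
    (hZ : u ∉ fixedPart (P : Subgroup G))
    (hn : n ∈ Subgroup.normalizer ((P : Subgroup G) : Set G)) (hc : n * u = u * n) :
    n ∈ Subgroup.centralizer ((P : Subgroup G) : Set G) := by
  rw [← h.centralizer_inf_normalizer hu hZ]
  exact ⟨Subgroup.mem_centralizer_singleton_iff.2 hc, hn⟩

/-- Fusion in `P` is controlled by the normalizer. -/
theorem exists_normalizer_conj (h : Hyp P) {u v g : G} (hu : u ∈ (P : Subgroup G))
    (hv : v ∈ (P : Subgroup G)) (hg : g * u * g⁻¹ = v) :
    ∃ n ∈ Subgroup.normalizer ((P : Subgroup G) : Set G), n * u * n⁻¹ = v := by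
  haveI : Fact (Nat.Prime 2) := ⟨Nat.prime_two⟩
  haveI := h.isMulCommutative
  obtain ⟨n, hn, e⟩ := Sylow.conj_eq_normalizer_conj_of_mem P u g⁻¹ hu (by rw [inv_inv, hg]; exact hv)
  rw [inv_inv, hg] at e
  exact ⟨n⁻¹, inv_mem hn, by rw [inv_inv]; exact e.symm⟩

theorem eq_of_isConj_fixed (h : Hyp P) {u v : G} (hu : u ∈ fixedPart (P : Subgroup G))
    (hv : v ∈ (P : Subgroup G)) (hc : IsConj u v) : v = u := by
  obtain ⟨g, hg⟩ := isConj_iff.1 hc
  obtain ⟨n, hn, e⟩ := h.exists_normalizer_conj (fixedPart_le _ hu) hv hg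
  rw [← e, (mem_fixedPart.1 hu).2 n hn, mul_inv_cancel_right]

/-- Outside the fixed part a class meets `P` in `e` elements. -/
theorem card_conj_of_not_fixed (h : Hyp P) {u : G} (hu : u ∈ (P : Subgroup G))
    (hZ : u ∉ fixedPart (P : Subgroup G)) :
    Nat.card {v : G // v ∈ (P : Subgroup G) ∧ IsConj u v} = idx (P : Subgroup G) := by
  set N := Subgroup.normalizer ((P : Subgroup G) : Set G) with hN
  set C := Subgroup.centralizer ((P : Subgroup G) : Set G) with hC
  let f : N → {v : G // v ∈ (P : Subgroup G) ∧ IsConj u v} := fun n =>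
    ⟨(n : G) * u * (n : G)⁻¹, (Subgroup.mem_normalizer_iff.1 n.2 u).1 hu, isConj_iff.2 ⟨n, rfl⟩⟩
  have hwell : ∀ a b : N, QuotientGroup.leftRel (C.subgroupOf N) a b → f a = f b := by
    intro a b hab
    rw [QuotientGroup.leftRel_apply, Subgroup.mem_subgroupOf] at hab
    have h1 := Subgroup.mem_centralizer_iff.1 hab u hu
    simp only [Subgroup.coe_mul, InvMemClass.coe_inv] at h1
    refine Subtype.ext ?_
    calc (a : G) * u * (a : G)⁻¹ = (a : G) * (u * ((a : G)⁻¹ * b)) * (b : G)⁻¹ := by group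
      _ = (b : G) * u * (b : G)⁻¹ := by rw [h1]; group
  have hbij : Function.Bijective
      (Quotient.lift f hwell : N ⧸ C.subgroupOf N → {v : G // v ∈ (P : Subgroup G) ∧ IsConj u v}) := by
    constructor
    · rintro ⟨a⟩ ⟨b⟩ hab
      have h1 : (a : G) * u * (a : G)⁻¹ = (b : G) * u * (b : G)⁻¹ := congrArg Subtype.val hab
      refine QuotientGroup.eq.2 (Subgroup.mem_subgroupOf.2 ?_)
      refine h.mem_centralizer_of_commute hu hZ (a⁻¹ * b).2 ?_
      rw [Subgroup.coe_mul, InvMemClass.coe_inv]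
      calc (a : G)⁻¹ * b * u = (a : G)⁻¹ * ((b : G) * u * (b : G)⁻¹) * b := by group
        _ = u * ((a : G)⁻¹ * b) := by rw [← h1]; group
    · rintro ⟨v, hv, hc⟩
      obtain ⟨g, hg⟩ := isConj_iff.1 hc
      obtain ⟨n, hn, e⟩ := h.exists_normalizer_conj hu hv hg
      exact ⟨QuotientGroup.mk ⟨n, hn⟩, Subtype.ext e⟩
  rw [← Nat.card_congr (Equiv.ofBijective _ hbij)]
  rfl

/-- Outside the fixed part the centralizers have normal 2-complements. -/
theorem hasNormalPComplement_centralizer (h : Hyp P) {u : G} (hu : u ∈ (P : Subgroup G))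
    (hZ : u ∉ fixedPart (P : Subgroup G)) :
    HasNormalPComplement 2 (Subgroup.centralizer ({u} : Set G)) := by
  haveI : Fact (Nat.Prime 2) := ⟨Nat.prime_two⟩
  set H := Subgroup.centralizer ({u} : Set G)
  have hPH : (P : Subgroup G) ≤ H := h.le_centralizer.trans
    (Subgroup.centralizer_le (Set.singleton_subset_iff.2 hu))
  refine Transfer.hasNormalPComplement_of_normalizer_le_centralizer (P.subtype hPH) fun n hn => ?_
  rw [← Sylow.coe_coe, Sylow.coe_subtype P hPH, ← Subgroup.subgroupOf_normalizer_eq hPH,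
    Subgroup.mem_subgroupOf] at hn
  have hc := h.mem_centralizer_of_commute hu hZ hn (Subgroup.mem_centralizer_singleton_iff.1 n.2)
  rw [Subgroup.mem_centralizer_iff] at hc ⊢
  intro x hx
  rw [← Sylow.coe_coe, Sylow.coe_subtype P hPH] at hx
  exact Subtype.ext (hc _ hx)

omit [Finite G] in
/-- The hypotheses in a subgroup containing the normalizer. -/
theorem subgroup (h : Hyp P) {H : Subgroup G} (hPH : (P : Subgroup G) ≤ H)
    (hNH : Subgroup.normalizer ((P : Subgroup G) : Set G) ≤ H) :
    Hyp (P.subtype hPH) ∧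
      idx ((P.subtype hPH : Sylow 2 H) : Subgroup H) = idx (P : Subgroup G) := by
  set P' := ((P.subtype hPH : Sylow 2 H) : Subgroup H) with hP'
  have hS : P' = (P : Subgroup G).subgroupOf H := Sylow.coe_subtype P hPH
  have hN : Subgroup.normalizer (P' : Set H) =
      (Subgroup.normalizer ((P : Subgroup G) : Set G)).subgroupOf H := by
    rw [hS, Subgroup.subgroupOf_normalizer_eq hPH]
  have hC : Subgroup.centralizer (P' : Set H) =
      (Subgroup.centralizer ((P : Subgroup G) : Set G)).subgroupOf H := by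
    rw [hS]
    ext x
    rw [Subgroup.mem_subgroupOf, Subgroup.mem_centralizer_iff, Subgroup.mem_centralizer_iff]
    constructor
    · intro hx y hy
      exact congrArg Subtype.val (hx ⟨y, hPH hy⟩ (Subgroup.mem_subgroupOf.2 hy))
    · exact fun hx y hy => Subtype.ext (hx y (Subgroup.mem_subgroupOf.1 hy))
  have hidx : idx P' = idx (P : Subgroup G) := by
    rw [idx, hN, hC, Subgroup.relIndex_subgroupOf hNH]
  refine ⟨⟨fun a ha b hb => ?_, hidx ▸ h.prime⟩, hidx⟩
  rw [← hP', hS, Subgroup.mem_subgroupOf] at ha hb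
  exact Subtype.ext (h.comm _ ha _ hb)

/-- The hypotheses modulo a normal subgroup with no new fixed points. -/
theorem quotient (h : Hyp P) (K : Subgroup G) [K.Normal] [Fact (Nat.Prime 2)]
    (hnorm : Subgroup.normalizer (((P : Subgroup G).map (QuotientGroup.mk' K) : Subgroup (G ⧸ K)) :
        Set (G ⧸ K)) =
      (Subgroup.normalizer ((P : Subgroup G) : Set G)).map (QuotientGroup.mk' K))
    (hfix : ∀ n ∈ Subgroup.normalizer ((P : Subgroup G) : Set G), ∀ x ∈ (P : Subgroup G),
      n * x * n⁻¹ * x⁻¹ ∈ K → n * x = x * n) :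
    Hyp (P.mapSurjective (QuotientGroup.mk'_surjective K)) ∧
      idx (((P.mapSurjective (QuotientGroup.mk'_surjective K) : Sylow 2 (G ⧸ K))) : Subgroup (G ⧸ K)) =
        idx (P : Subgroup G) ∧
      fixedPart ((P.mapSurjective (QuotientGroup.mk'_surjective K) : Sylow 2 (G ⧸ K)) :
          Subgroup (G ⧸ K)) =
        (fixedPart (P : Subgroup G)).map (QuotientGroup.mk' K) := by
  set π := QuotientGroup.mk' K with hπ
  set N := Subgroup.normalizer ((P : Subgroup G) : Set G)
  set P' := ((P.mapSurjective (QuotientGroup.mk'_surjective K) : Sylow 2 (G ⧸ K)) : Subgroup (G ⧸ K))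
  have hP' : P' = (P : Subgroup G).map π := Sylow.coe_mapSurjective (QuotientGroup.mk'_surjective K) P
  have hmem : ∀ a b : G, π a = π b ↔ a * b⁻¹ ∈ K := fun a b => by
    rw [← mul_inv_eq_one, ← map_inv, ← map_mul]
    exact QuotientGroup.eq_one_iff _
  have hker : ∀ n ∈ N, ∀ x ∈ (P : Subgroup G),
      (π n * π x = π x * π n ↔ n * x = x * n) := by
    intro n hn x hx
    refine ⟨fun e => hfix n hn x hx ?_, fun e => by rw [← map_mul, e, map_mul]⟩
    rw [← map_mul, ← map_mul, hmem] at e
    simpa [mul_assoc] using e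
  have hidx : idx P' = idx (P : Subgroup G) := by
    rw [idx, hP', hnorm, ← Subgroup.relIndex_comap]
    show _ = (Subgroup.centralizer ((P : Subgroup G) : Set G)).relIndex N
    rw [← Subgroup.inf_relIndex_right, ← Subgroup.inf_relIndex_right (Subgroup.centralizer _)]
    congr 1
    ext n
    simp only [Subgroup.mem_inf, Subgroup.mem_comap]
    refine ⟨fun hn => ⟨Subgroup.mem_centralizer_iff.2 fun x hx => ?_, hn.2⟩,
      fun hn => ⟨Subgroup.mem_centralizer_iff.2 ?_, hn.2⟩⟩
    · exact ((hker n hn.2 x hx).1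
        (Subgroup.mem_centralizer_iff.1 hn.1 (π x) ⟨x, hx, rfl⟩).symm).symm
    · rintro _ ⟨x, hx, rfl⟩
      exact ((hker n hn.2 x hx).2 (Subgroup.mem_centralizer_iff.1 hn.1 x hx).symm).symm
  refine ⟨⟨?_, hidx ▸ h.prime⟩, hidx, ?_⟩
  · intro a ha b hb
    change a ∈ P' at ha
    change b ∈ P' at hb
    rw [hP'] at ha hb
    obtain ⟨a, ha', rfl⟩ := ha
    obtain ⟨b, hb', rfl⟩ := hb
    rw [← map_mul, ← map_mul, h.comm a ha' b hb']
  · ext y
    rw [mem_fixedPart, hP', hnorm]
    constructor
    · rintro ⟨⟨x, hx, rfl⟩, hc⟩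
      exact ⟨x, mem_fixedPart.2 ⟨hx, fun n hn => (hker n hn x hx).1 (hc _ ⟨n, hn, rfl⟩)⟩, rfl⟩
    · rintro ⟨x, hx, rfl⟩
      rw [SetLike.mem_coe, mem_fixedPart] at hx
      refine ⟨⟨x, hx.1, rfl⟩, ?_⟩
      rintro _ ⟨n, hn, rfl⟩
      exact (hker n hn x hx.1).2 (hx.2 n hn)

/-- A subgroup of order two of the centre is fixed without new fixed points. -/
theorem fix_of_central (h : Hyp P) {K : Subgroup G} (hKc : K ≤ Subgroup.center G)
    (hK2 : ∀ k ∈ K, k * k = 1) : ∀ n ∈ Subgroup.normalizer ((P : Subgroup G) : Set G),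
    ∀ x ∈ (P : Subgroup G), n * x * n⁻¹ * x⁻¹ ∈ K → n * x = x * n := by
  intro n hn x hx hk
  set k := n * x * n⁻¹ * x⁻¹ with hkd
  have hkz : ∀ g : G, g * k = k * g := fun g => Subgroup.mem_center_iff.1 (hKc hk) g
  have hkx : n * x * n⁻¹ = k * x := by rw [hkd]; group
  clear_value k
  have hstep : ∀ j : ℕ, n ^ j * x * (n ^ j)⁻¹ = k ^ j * x := by
    intro j
    induction j with
    | zero => simp
    | succ j ih =>
      calc n ^ (j + 1) * x * (n ^ (j + 1))⁻¹ = n * (n ^ j * x * (n ^ j)⁻¹) * n⁻¹ := by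
            rw [pow_succ']; group
        _ = n * k ^ j * n⁻¹ * (n * x * n⁻¹) := by rw [ih]; group
        _ = k ^ j * (k * x) := by
            rw [show n * k ^ j = k ^ j * n from (Commute.pow_right (hkz n) j), mul_inv_cancel_right,
              hkx]
        _ = k ^ (j + 1) * x := by rw [pow_succ, mul_assoc]
  have hC : n ^ idx (P : Subgroup G) ∈ Subgroup.centralizer ((P : Subgroup G) : Set G) := by
    let φ := (P : Subgroup G).normalizerMonoidHom
    have h1 : ((⟨n, hn⟩ : Subgroup.normalizer ((P : Subgroup G) : Set G)) ^ idx (P : Subgroup G)) ∈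
        φ.ker := Subgroup.pow_index_mem φ.ker ⟨n, hn⟩ |> fun h1 => by
          rw [show idx (P : Subgroup G) = φ.ker.index by
            rw [Subgroup.normalizerMonoidHom_ker]; rfl]
          exact h1
    rw [Subgroup.normalizerMonoidHom_ker, Subgroup.mem_subgroupOf] at h1
    simpa using h1
  have h1 : k ^ idx (P : Subgroup G) = 1 := by
    have h2 := hstep (idx (P : Subgroup G))
    rw [← Subgroup.mem_centralizer_iff.1 hC x hx, mul_inv_cancel_right] at h2
    exact mul_eq_right.1 h2.symm
  obtain ⟨m, hm⟩ := h.odd_idx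
  rw [hm, pow_succ, pow_mul, pow_two, hK2 k hk, one_pow, one_mul] at h1
  rw [hkd, mul_inv_eq_one, mul_inv_eq_iff_eq_mul] at h1
  exact h1

end Hyp

end CfsgLib.AbelianTwoPrime
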